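import Cfsg.Prelude.Def_GeometricClasses
import Cfsg.Agent.Lib.Helper99.Symp

set_option autoImplicit false

namespace Cfsg.Agent.Lib.Helper99

open Module

variable {F : Type*} [Field F] (d : ℕ)

/-- The standard alternating form as a bilinear form. -/
noncomputable def sympB : LinearMap.BilinForm F (Fin d ⊕ Fin d → F) :=
  Matrix.toBilin' (Matrix.J (Fin d) F)

lemma sympB_apply (u v : Fin d ⊕ Fin d → F) : sympB d u v = Cfsg.sympForm d F u v := by
  simp [sympB, Cfsg.sympForm, Matrix.toBilin'_apply']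

lemma sympForm_eq (u v : Fin d ⊕ Fin d → F) :
    Cfsg.sympForm d F u v = ∑ i, (u (.inr i) * v (.inl i) - u (.inl i) * v (.inr i)) := by
  simp only [Cfsg.sympForm, Matrix.J, dotProduct, Fintype.sum_sum_type, Matrix.mulVec,
    Matrix.fromBlocks_apply₁₁, Matrix.fromBlocks_apply₁₂, Matrix.fromBlocks_apply₂₁,
    Matrix.fromBlocks_apply₂₂]
  simp [Matrix.one_apply, Finset.sum_sub_distrib]
  ring

lemma sympB_isAlt : (sympB d : LinearMap.BilinForm F (Fin d ⊕ Fin d → F)).IsAlt := by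
  intro v
  rw [sympB_apply, sympForm_eq]
  apply Finset.sum_eq_zero
  intro i _
  ring

lemma sympB_nondeg : NondegOn (sympB d : LinearMap.BilinForm F (Fin d ⊕ Fin d → F)) ⊤ := by
  intro v _ hv
  obtain ⟨k, hk⟩ : ∃ k, v k ≠ 0 := by
    by_contra h
    push Not at h
    exact hv (funext h)
  rcases k with i | i
  · refine ⟨Pi.single (Sum.inr i) 1, trivial, ?_⟩
    rw [sympB_apply, sympForm_eq]
    simp [Pi.single_apply, hk]
  · refine ⟨Pi.single (Sum.inl i) 1, trivial, ?_⟩
    rw [sympB_apply, sympForm_eq]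
    simp [Pi.single_apply, hk]

lemma sympB_iso (x : Matrix.symplecticGroup (Fin d) F) (u v : Fin d ⊕ Fin d → F) :
    sympB d (Matrix.toLin' (x : Matrix (Fin d ⊕ Fin d) (Fin d ⊕ Fin d) F) u)
      (Matrix.toLin' (x : Matrix (Fin d ⊕ Fin d) (Fin d ⊕ Fin d) F) v) = sympB d u v := by
  have h := (SymplecticGroup.mem_iff' (A := (x : Matrix (Fin d ⊕ Fin d) (Fin d ⊕ Fin d) F))).1 x.2
  simp only [sympB, Matrix.toBilin'_apply', Matrix.toLin'_apply]
  rw [Matrix.mulVec_mulVec, Matrix.dotProduct_mulVec, Matrix.vecMul_mulVec, ← Matrix.dotProduct_mulVec]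
  congr 1
  rw [← Matrix.mul_assoc, h]

end Cfsg.Agent.Lib.Helper99
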