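import Cfsg.Agent.Lib.Helper99.SympBridge
import Cfsg.Agent.Lib.Helper99.SympForm
import Cfsg.Agent.Lib.Helper6.SLCard
import Cfsg.Agent.S0245

set_option autoImplicit false
open scoped MatrixGroups

namespace Cfsg.Agent.Lib.Helper99

open Module Submodule

section coords

variable {F V : Type*} [Field F] [AddCommGroup V] [Module F V]

/-- The bijection between pairs and two copies. -/
def pairSumEquiv (κ : Type*) : κ × Fin 2 ≃ κ ⊕ κ where
  toFun k := if k.2 = 0 then Sum.inl k.1 else Sum.inr k.1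
  invFun := Sum.elim (fun i => (i, 0)) (fun i => (i, 1))
  left_inv := by
    rintro ⟨i, s⟩
    have hs : s = 0 ∨ s = 1 := by fin_cases s <;> simp
    rcases hs with rfl | rfl <;> simp
  right_inv := by
    rintro (i | i) <;> simp

/-- Standard coordinates for a non-degenerate alternating form. -/
theorem exists_symplectic_coords [FiniteDimensional F V] {B : LinearMap.BilinForm F V} (hB : B.IsAlt)
    (hnd : NondegOn B ⊤) {m : ℕ} (hm : finrank F V = 2 * m) :
    ∃ Φ : (Fin m ⊕ Fin m → F) ≃ₗ[F] V, ∀ u v, B (Φ u) (Φ v) = sympB m u v := by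
  classical
  obtain ⟨κ, _, _, ee, h1, h2⟩ := exists_hyperbolic_basis hB hnd
  have hcard : Fintype.card κ = m := by
    have h4 := finrank_eq_card_basis ee
    rw [Fintype.card_prod, Fintype.card_fin] at h4
    omega
  let σ : κ ≃ Fin m := Fintype.equivFinOfCardEq hcard
  let w : κ × Fin 2 → Fˣ := fun k => if k.2 = 0 then (Units.mk0 _ (neg_ne_zero.2 (h1 k.1)))⁻¹ else 1
  let ss : Basis (Fin m ⊕ Fin m) F V :=
    (ee.unitsSMul w).reindex ((pairSumEquiv κ).trans (Equiv.sumCongr σ σ))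
  have hl : ∀ i, ss (Sum.inl i) = (-(B (ee (σ.symm i, 0)) (ee (σ.symm i, 1))))⁻¹ • ee (σ.symm i, 0) := by
    intro i
    simp [ss, pairSumEquiv, Basis.unitsSMul_apply, w, Units.smul_def]
  have hr : ∀ i, ss (Sum.inr i) = ee (σ.symm i, 1) := by
    intro i
    simp [ss, pairSumEquiv, Basis.unitsSMul_apply, w]
  refine ⟨(Pi.basisFun F (Fin m ⊕ Fin m)).equiv ss (Equiv.refl _), ?_⟩
  set Φ := (Pi.basisFun F (Fin m ⊕ Fin m)).equiv ss (Equiv.refl _) with hΦ
  have hΦb : ∀ k, Φ (Pi.basisFun F (Fin m ⊕ Fin m) k) = ss k := by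
    intro k
    rw [hΦ, Basis.equiv_apply]
    rfl
  have key : B.comp (Φ : (Fin m ⊕ Fin m → F) →ₗ[F] V) (Φ : (Fin m ⊕ Fin m → F) →ₗ[F] V) = sympB m := by
    apply LinearMap.BilinForm.ext_basis (Pi.basisFun F (Fin m ⊕ Fin m))
    intro k l
    rw [LinearMap.BilinForm.comp_apply, LinearEquiv.coe_coe, hΦb, hΦb, sympB_apply, sympForm_eq]
    simp only [Pi.basisFun_apply]
    rcases k with i | i <;> rcases l with j | j
    · rw [hl, hl, map_smul, map_smul, LinearMap.smul_apply]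
      by_cases hij : i = j
      · subst hij
        rw [hB]; simp
      · rw [h2 _ _ (fun h => hij (σ.symm.injective h))]; simp
    · rw [hl, hr, map_smul, LinearMap.smul_apply]
      by_cases hij : i = j
      · subst hij
        rw [smul_eq_mul, inv_mul_eq_div, div_neg, div_self (h1 _)]
        simp [Pi.single_apply]
      · rw [h2 _ _ (fun h => hij (σ.symm.injective h))]
        simp [Pi.single_apply, Ne.symm hij]
    · rw [hl, hr, map_smul]
      by_cases hij : i = j
      · subst hij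
        rw [skew_of_alt hB (ee (σ.symm i, 1)), smul_eq_mul, inv_mul_cancel₀ (neg_ne_zero.2 (h1 _))]
        simp [Pi.single_apply]
      · rw [h2 _ _ (fun h => hij (σ.symm.injective h))]
        simp [Pi.single_apply, Ne.symm hij]
    · rw [hr, hr]
      by_cases hij : i = j
      · subst hij
        rw [hB]; simp
      · rw [h2 _ _ (fun h => hij (σ.symm.injective h))]; simp
  intro u v
  exact congrArg (fun C : LinearMap.BilinForm F (Fin m ⊕ Fin m → F) => C u v) key

end coords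

section arith

lemma prod_range_two_mul (g : ℕ → ℕ) (m : ℕ) :
    ∏ k ∈ Finset.range (2 * m), g k = (∏ j ∈ Finset.range m, g (2 * j)) * ∏ j ∈ Finset.range m, g (2 * j + 1) := by
  induction m with
  | zero => simp
  | succ m ih =>
    rw [show 2 * (m + 1) = 2 * m + 1 + 1 by ring, Finset.prod_range_succ, Finset.prod_range_succ, ih,
      Finset.prod_range_succ, Finset.prod_range_succ]
    ring

lemma prod_GL_eq (q n : ℕ) :
    ∏ i : Fin n, (q ^ n - q ^ (i : ℕ)) = q ^ (∑ i ∈ Finset.range n, i) * ∏ k ∈ Finset.range n, (q ^ (k + 1) - 1) := by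
  rw [Fin.prod_univ_eq_prod_range (fun i => q ^ n - q ^ i) n, ← Finset.prod_pow_eq_pow_sum,
    ← Finset.prod_range_reflect (fun k => q ^ (k + 1) - 1), ← Finset.prod_mul_distrib]
  apply Finset.prod_congr rfl
  intro i hi
  rw [Finset.mem_range] at hi
  rw [Nat.mul_sub, mul_one, ← pow_add]
  congr 2
  omega

/-- The arithmetic consequence of the order formulas for `SL_{2m}(q)` and `Sp_{2m}(q)`. -/
lemma prime_dvd_of_index_eq {q m j ε r : ℕ} (hq : 2 ≤ q) (hm : 1 ≤ m) (hr : r.Prime) (hr2 : r ≠ 2)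
    (hε : ε ∣ 2) (hrj : r ∣ j)
    (h : (q - 1) * (j * (q ^ (m ^ 2) * ∏ i ∈ Finset.range m, (q ^ (2 * (i + 1)) - 1)))
      = ε * ∏ i : Fin (2 * m), (q ^ (2 * m) - q ^ (i : ℕ))) :
    r ∣ q ∨ ∃ i, 1 ≤ i ∧ i < m ∧ r ∣ q ^ (2 * i + 1) - 1 := by
  rw [prod_GL_eq q (2 * m), prod_range_two_mul] at h
  obtain ⟨m', rfl⟩ : ∃ m', m = m' + 1 := ⟨m - 1, by omega⟩
  rw [Finset.prod_range_succ' (fun j => q ^ (2 * j + 1) - 1)] at h
  simp only [mul_zero, zero_add, pow_one] at h
  set E := ∏ i ∈ Finset.range (m' + 1), (q ^ (2 * (i + 1)) - 1) with hE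
  have hE' : ∏ j ∈ Finset.range (m' + 1), (q ^ (2 * j + 1 + 1) - 1) = E := by
    apply Finset.prod_congr rfl
    intro i _
    congr 2
  rw [hE'] at h
  have hEpos : 0 < E := by
    apply Finset.prod_pos
    intro i _
    have : 1 < q ^ (2 * (i + 1)) := Nat.one_lt_pow (by omega) (by omega)
    omega
  have h2 : j * q ^ ((m' + 1) ^ 2) = ε * (q ^ (∑ i ∈ Finset.range (2 * (m' + 1)), i)
      * ∏ k ∈ Finset.range m', (q ^ (2 * (k + 1) + 1) - 1)) := by
    apply Nat.eq_of_mul_eq_mul_left (Nat.mul_pos (show 0 < q - 1 by omega) hEpos)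
    linear_combination h
  have h3 : r ∣ ε * (q ^ (∑ i ∈ Finset.range (2 * (m' + 1)), i)
      * ∏ k ∈ Finset.range m', (q ^ (2 * (k + 1) + 1) - 1)) := by
    rw [← h2]; exact Dvd.dvd.mul_right hrj _
  rcases hr.dvd_mul.1 h3 with h4 | h4
  · exfalso
    have := (Nat.prime_dvd_prime_iff_eq hr Nat.prime_two).1 (h4.trans hε)
    exact hr2 this
  · rcases hr.dvd_mul.1 h4 with h5 | h5
    · left; exact hr.dvd_of_dvd_pow h5
    · right
      obtain ⟨k, hk, hk'⟩ := (Prime.dvd_finsetProd_iff hr.prime _).1 h5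
      rw [Finset.mem_range] at hk
      exact ⟨k + 1, by omega, by omega, hk'⟩

end arith

section index

variable {F : Type*} [Field F] [Fintype F]

/-- A prime dividing the index of the similitude group of an alternating form in `SL_n(q)`. -/
theorem prime_dvd_index_similarity {n m : ℕ} (hnm : n = 2 * m) (hm : 1 ≤ m)
    (f : (Fin n → F) → (Fin n → F) → F) (hf : Cfsg.Geo.IsSymplecticForm f) {r : ℕ} (hr : r.Prime)
    (hr2 : r ≠ 2)
    (hΩ : r ∣ ((Cfsg.Geo.similarityGroup f).comap (Matrix.SpecialLinearGroup.toGL :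
      Matrix.SpecialLinearGroup (Fin n) F →* GL (Fin n) F)).index) :
    r ∣ Fintype.card F ∨ ∃ i, 1 ≤ i ∧ i < m ∧ r ∣ Fintype.card F ^ (2 * i + 1) - 1 := by
  classical
  subst hnm
  obtain ⟨Φ, hΦ⟩ := exists_symplectic_coords (formB_isAlt hf) (formB_nondeg hf) (m := m) (by simp)
  let Ψ : Matrix (Fin m ⊕ Fin m) (Fin m ⊕ Fin m) F ≃ₐ[F] Matrix (Fin (2 * m)) (Fin (2 * m)) F :=
    (Matrix.toLinAlgEquiv'.trans (Φ.conjAlgEquiv F)).trans LinearMap.toMatrixAlgEquiv'
  have hΨv : ∀ A v, (Ψ A).mulVec v = Φ (A.mulVec (Φ.symm v)) := by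
    intro A v
    show (LinearMap.toMatrix' ((Φ : (Fin m ⊕ Fin m → F) →ₗ[F] (Fin (2 * m) → F)) ∘ₗ (Matrix.toLin' A) ∘ₗ (Φ.symm : (Fin (2 * m) → F) →ₗ[F] (Fin m ⊕ Fin m → F)))).mulVec v = _
    rw [← Matrix.toLin'_apply, Matrix.toLin'_toMatrix']
    rfl
  have hΨdet : ∀ A, (Ψ A).det = A.det := by
    intro A
    show (LinearMap.toMatrix' ((Φ : (Fin m ⊕ Fin m → F) →ₗ[F] (Fin (2 * m) → F)) ∘ₗ (Matrix.toLin' A) ∘ₗ (Φ.symm : (Fin (2 * m) → F) →ₗ[F] (Fin m ⊕ Fin m → F)))).det = _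
    rw [LinearMap.det_toMatrix', LinearMap.det_conj, LinearMap.det_toLin']
  let detS : ↥(Matrix.symplecticGroup (Fin m) F) →* Fˣ :=
    MonoidHom.toHomUnits ((Matrix.detMonoidHom).comp (Matrix.symplecticGroup (Fin m) F).subtype)
  have hdetS : ∀ A, ((detS A : Fˣ) : F) = (A : Matrix (Fin m ⊕ Fin m) (Fin m ⊕ Fin m) F).det := fun A => rfl
  have hsq : ∀ A : ↥(Matrix.symplecticGroup (Fin m) F),
      (A : Matrix (Fin m ⊕ Fin m) (Fin m ⊕ Fin m) F).det * (A : Matrix (Fin m ⊕ Fin m) (Fin m ⊕ Fin m) F).det = 1 := by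
    intro A
    have h1 := congrArg Matrix.det (SymplecticGroup.mem_iff.1 A.2)
    rw [Matrix.det_mul, Matrix.det_mul, Matrix.det_transpose] at h1
    have hJ : (Matrix.J (Fin m) F).det ≠ 0 := by
      intro h0
      have := Matrix.J_det_mul_J_det (Fin m) F
      rw [h0, mul_zero] at this
      exact zero_ne_one this
    apply mul_right_cancel₀ hJ
    linear_combination h1
  have hε : detS.ker.index ∣ 2 := by
    rw [Subgroup.index_ker]
    have hle : detS.range ≤ Subgroup.zpowers (-1 : Fˣ) := by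
      rintro _ ⟨A, rfl⟩
      rcases mul_self_eq_one_iff.1 (hsq A) with h | h
      · have : detS A = 1 := Units.ext (by rw [hdetS, h]; rfl)
        rw [this]; exact Subgroup.one_mem _
      · have : detS A = -1 := Units.ext (by rw [hdetS, h]; rfl)
        rw [this]; exact Subgroup.mem_zpowers _
    refine (Subgroup.card_dvd_of_le hle).trans ?_
    rw [Nat.card_zpowers]
    exact orderOf_dvd_of_pow_eq_one (by simp)
  let χ : detS.ker →* Matrix.SpecialLinearGroup (Fin (2 * m)) F :=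
    { toFun := fun A => ⟨Ψ (A.1 : Matrix (Fin m ⊕ Fin m) (Fin m ⊕ Fin m) F), by
        rw [hΨdet, ← hdetS, MonoidHom.mem_ker.1 A.2]; rfl⟩
      map_one' := Subtype.ext (map_one Ψ)
      map_mul' := fun A B => Subtype.ext (map_mul Ψ _ _) }
  have hχinj : Function.Injective χ := by
    intro A B hAB
    apply Subtype.ext
    apply Subtype.ext
    exact Ψ.injective (congrArg Subtype.val hAB)
  have hle : χ.range ≤ (Cfsg.Geo.similarityGroup f).comap (Matrix.SpecialLinearGroup.toGL :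
      Matrix.SpecialLinearGroup (Fin (2 * m)) F →* GL (Fin (2 * m)) F) := by
    rintro _ ⟨A, rfl⟩
    refine ⟨1, fun u v => ?_⟩
    show f ((Ψ (A.1 : Matrix (Fin m ⊕ Fin m) (Fin m ⊕ Fin m) F)).mulVec u)
      ((Ψ (A.1 : Matrix (Fin m ⊕ Fin m) (Fin m ⊕ Fin m) F)).mulVec v) = _
    rw [hΨv, hΨv, ← formB_apply hf.bilinear, hΦ]
    have := sympB_iso m A.1 (Φ.symm u) (Φ.symm v)
    simp only [Matrix.toLin'_apply] at this
    rw [this, ← hΦ, LinearEquiv.apply_symm_apply, LinearEquiv.apply_symm_apply, formB_apply]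
    simp
  have hrj : r ∣ χ.range.index := hΩ.trans (Subgroup.index_dvd_of_le hle)
  have h1 := χ.range.card_mul_index
  have h2 : Nat.card χ.range = Nat.card detS.ker :=
    Nat.card_congr (MonoidHom.ofInjective hχinj).toEquiv.symm
  have h3 := detS.ker.card_mul_index
  have h4 := Cfsg.Agent.S0245.result (F := F) rfl m
  have h5 := Cfsg.Agent.Lib.Helper6.card_SL_field (F := F) (2 * m) (by omega)
  refine prime_dvd_of_index_eq (j := χ.range.index) (ε := detS.ker.index) Fintype.one_lt_card hm hr hr2 hε hrj ?_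
  rw [← h5, ← h4, ← h1, ← h3, h2]
  ring

end index

end Cfsg.Agent.Lib.Helper99
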