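import Cfsg.Agent.Lib.Helper99.AltDerange
import Cfsg.Agent.Lib.Helper50.SympCount

set_option autoImplicit false

namespace Cfsg.Agent.Lib.Helper99

open Module Submodule Cfsg.Agent.Lib.Helper50.Symp

variable {F V : Type*} [Field F] [AddCommGroup V] [Module F V]

/-- A frame is linearly independent. -/
lemma frame_linearIndependent {B : LinearMap.BilinForm F V} (hB : B.IsAlt) {d : ℕ}
    {x : (Fin d → V) × (Fin d → V)} (hx : IsFr B d ⊤ x) :
    LinearIndependent F (Sum.elim x.1 x.2) := by
  obtain ⟨-, -, h1, h2, h3⟩ := hx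
  apply linearIndependent_of_dual B (Sum.elim x.1 x.2) (Sum.elim x.2 x.1)
  · rintro (i | i)
    · simp [h3]
    · simp only [Sum.elim_inr]
      rw [skew_of_alt hB, h3]; simp
  · rintro (i | i) (j | j) hne
    · have : i ≠ j := fun h => hne (by rw [h])
      simp [h3, this]
    · simp [h1]
    · simp [h2]
    · have : j ≠ i := fun h => hne (by rw [h])
      simp only [Sum.elim_inr]
      rw [skew_of_alt hB, h3]; simp [this]

/-- The pair of isotropic subspaces spanned by a frame. -/
lemma frame_isCompl [FiniteDimensional F V] {B : LinearMap.BilinForm F V} (hB : B.IsAlt) {d : ℕ}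
    (hd : finrank F V = 2 * d) {x : (Fin d → V) × (Fin d → V)} (hx : IsFr B d ⊤ x) :
    IsCompl (span F (Set.range x.1)) (span F (Set.range x.2)) := by
  have hli := frame_linearIndependent hB hx
  have h1 := linearIndependent_sum.1 hli
  constructor
  · exact h1.2.2
  · rw [codisjoint_iff, ← span_union, ← Set.Sum.elim_range]
    apply hli.span_eq_top_of_card_eq_finrank'
    rw [hd]; simp; ring

lemma isoOn_span' {B : LinearMap.BilinForm F V} {S : Set V}
    (h : ∀ a ∈ S, ∀ b ∈ S, B a b = 0) : IsoOn B (Submodule.span F S) := by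
  have h1 : ∀ a ∈ S, ∀ v ∈ Submodule.span F S, B a v = 0 := by
    intro a ha v hv
    have : Submodule.span F S ≤ LinearMap.ker (B a) := by
      rw [Submodule.span_le]
      intro b hb
      exact h a ha b hb
    exact this hv
  intro u hu v hv
  have : Submodule.span F S ≤ LinearMap.ker (B.flip v) := by
    rw [Submodule.span_le]
    intro a ha
    exact h1 a ha v hv
  exact this hu

/-- Complementary isotropic subspaces have half the dimension. -/
lemma finrank_of_isCompl_isoOn [FiniteDimensional F V] {B : LinearMap.BilinForm F V} (hB : B.IsAlt)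
    (hnd : NondegOn B ⊤) {d : ℕ} (hd : finrank F V = 2 * d) {U W : Submodule F V} (hc : IsCompl U W)
    (hU : IsoOn B U) (hW : IsoOn B W) : finrank F U = d ∧ finrank F W = d := by
  have h1 := two_mul_finrank_le_of_isoOn hB hnd hU
  have h2 := two_mul_finrank_le_of_isoOn hB hnd hW
  have h3 := Submodule.finrank_add_eq_of_isCompl hc
  omega

/-- Dual family in the complementary isotropic subspace. -/
lemma exists_dual_family [FiniteDimensional F V] {B : LinearMap.BilinForm F V} (hB : B.IsAlt)
    (hnd : NondegOn B ⊤) {d : ℕ} (hd : finrank F V = 2 * d) {U W : Submodule F V} (hc : IsCompl U W)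
    (hU : IsoOn B U) (hW : IsoOn B W) (e : Fin d → V) (he : span F (Set.range e) = U) :
    ∃ f : Fin d → V, (∀ j, f j ∈ W) ∧ ∀ i j, B (e i) (f j) = if i = j then 1 else 0 := by
  classical
  obtain ⟨-, hWd⟩ := finrank_of_isCompl_isoOn hB hnd hd hc hU hW
  let δ : W →ₗ[F] (Fin d → F) := LinearMap.pi (fun i => (B (e i)).comp W.subtype)
  have hinj : Function.Injective δ := by
    rw [← LinearMap.ker_eq_bot, LinearMap.ker_eq_bot']
    rintro ⟨w, hw⟩ hδ
    apply Subtype.ext
    show w = 0
    by_contra hw0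
    obtain ⟨y, _, hy⟩ := hnd w trivial hw0
    apply hy
    have hUw : ∀ u ∈ U, B u w = 0 := by
      intro u hu
      have : U ≤ LinearMap.ker (B.flip w) := by
        rw [← he, span_le]
        rintro _ ⟨i, rfl⟩
        exact congrFun hδ i
      exact this hu
    have hy' : y ∈ U ⊔ W := by rw [hc.sup_eq_top]; trivial
    obtain ⟨u, hu, w', hw', rfl⟩ := Submodule.mem_sup.1 hy'
    rw [map_add, hW w hw w' hw', add_zero, skew_of_alt hB, hUw u hu, neg_zero]
  have hsurj : Function.Surjective δ :=
    (LinearMap.injective_iff_surjective_of_finrank_eq_finrank (by rw [hWd]; simp)).1 hinj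
  choose f hf using fun j => hsurj (Pi.single j 1)
  refine ⟨fun j => (f j : V), fun j => (f j).2, ?_⟩
  intro i j
  have := congrFun (hf j) i
  rw [Pi.single_apply] at this
  exact this

/-- A vector of `W` orthogonal to `U` vanishes. -/
lemma eq_zero_of_orth_compl {B : LinearMap.BilinForm F V} (hB : B.IsAlt)
    (hnd : NondegOn B ⊤) {U W : Submodule F V} (hc : IsCompl U W) (hW : IsoOn B W)
    {w : V} (hw : w ∈ W) (h : ∀ u ∈ U, B u w = 0) : w = 0 := by
  by_contra hw0
  obtain ⟨y, _, hy⟩ := hnd w trivial hw0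
  apply hy
  have hy' : y ∈ U ⊔ W := by rw [hc.sup_eq_top]; trivial
  obtain ⟨u, hu, w', hw', rfl⟩ := Submodule.mem_sup.1 hy'
  rw [map_add, hW w hw w' hw', add_zero, skew_of_alt hB, h u hu, neg_zero]

/-- The number of frames spanning a given pair of complementary isotropic subspaces. -/
lemma card_frames_over [Fintype F] [Finite V] {B : LinearMap.BilinForm F V} (hB : B.IsAlt)
    (hnd : NondegOn B ⊤) {d : ℕ} (hd : finrank F V = 2 * d) {U W : Submodule F V} (hc : IsCompl U W)
    (hU : IsoOn B U) (hW : IsoOn B W) :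
    Nat.card {x : (Fin d → V) × (Fin d → V) // IsFr B d ⊤ x ∧ span F (Set.range x.1) = U ∧
      span F (Set.range x.2) = W} = ∏ i : Fin d, (Fintype.card F ^ d - Fintype.card F ^ (i : ℕ)) := by
  classical
  have : FiniteDimensional F V := Module.Finite.of_finite
  obtain ⟨hUd, hWd⟩ := finrank_of_isCompl_isoOn hB hnd hd hc hU hW
  have h1 := card_linearIndependent (K := F) (V := U) (k := d) (by rw [hUd])
  rw [hUd] at h1
  rw [← h1]
  have hmem : ∀ x : {x : (Fin d → V) × (Fin d → V) // IsFr B d ⊤ x ∧ span F (Set.range x.1) = U ∧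
      span F (Set.range x.2) = W}, ∀ i, x.1.1 i ∈ U := by
    intro x i
    have h : x.1.1 i ∈ span F (Set.range x.1.1) := subset_span ⟨i, rfl⟩
    exact x.2.2.1.le h
  have hmem2 : ∀ x : {x : (Fin d → V) × (Fin d → V) // IsFr B d ⊤ x ∧ span F (Set.range x.1) = U ∧
      span F (Set.range x.2) = W}, ∀ i, x.1.2 i ∈ W := by
    intro x i
    have h : x.1.2 i ∈ span F (Set.range x.1.2) := subset_span ⟨i, rfl⟩
    exact x.2.2.2.le h
  apply Nat.card_congr
  refine Equiv.ofBijective (fun x => ⟨fun i => ⟨x.1.1 i, hmem x i⟩, ?_⟩) ⟨?_, ?_⟩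
  · have hli := (linearIndependent_sum.1 (frame_linearIndependent hB x.2.1)).1
    apply LinearIndependent.of_comp U.subtype
    exact hli
  · intro x y hxy
    have h1 : x.1.1 = y.1.1 := by
      funext i
      have := congrFun (congrArg Subtype.val hxy) i
      exact congrArg Subtype.val this
    apply Subtype.ext
    apply Prod.ext h1
    funext j
    rw [← sub_eq_zero]
    apply eq_zero_of_orth_compl hB hnd hc hW (W.sub_mem (hmem2 x j) (hmem2 y j))
    intro u hu
    have : U ≤ LinearMap.ker (B.flip (x.1.2 j - y.1.2 j)) := by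
      refine x.2.2.1.ge.trans ?_
      rw [span_le]
      rintro _ ⟨i, rfl⟩
      show B (x.1.1 i) (x.1.2 j - y.1.2 j) = 0
      rw [map_sub, x.2.1.2.2.2.2, h1, y.2.1.2.2.2.2, sub_self]
    exact this hu
  · rintro ⟨e, he⟩
    have he' : LinearIndependent F (fun i => (e i : V)) := he.map' U.subtype (Submodule.ker_subtype U)
    have hsp : span F (Set.range (fun i => (e i : V))) = U := by
      apply Submodule.eq_of_le_of_finrank_eq
      · rw [span_le]
        rintro _ ⟨i, rfl⟩
        exact (e i).2
      · rw [finrank_span_eq_card he', Fintype.card_fin, hUd]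
    obtain ⟨f, hfW, hf⟩ := exists_dual_family hB hnd hd hc hU hW (fun i => (e i : V)) hsp
    have hfr : IsFr B d ⊤ ((fun i => (e i : V)), f) :=
      ⟨fun _ => trivial, fun _ => trivial, fun i j => hU _ (e i).2 _ (e j).2,
        fun i j => hW _ (hfW i) _ (hfW j), hf⟩
    have hfl : LinearIndependent F f := (linearIndependent_sum.1 (frame_linearIndependent hB hfr)).2.1
    have hsp2 : span F (Set.range f) = W := by
      apply Submodule.eq_of_le_of_finrank_eq
      · rw [span_le]
        rintro _ ⟨i, rfl⟩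
        exact hfW i
      · rw [finrank_span_eq_card hfl, Fintype.card_fin, hWd]
    exact ⟨⟨((fun i => (e i : V)), f), hfr, hsp, hsp2⟩, rfl⟩

/-- The number of frames is the number of polar pairs times the order of the general linear group. -/
theorem card_frames_eq_card_pairs_mul [Fintype F] [Finite V] {B : LinearMap.BilinForm F V} (hB : B.IsAlt)
    (hnd : NondegOn B ⊤) {d : ℕ} (hd : finrank F V = 2 * d) :
    Nat.card {x : (Fin d → V) × (Fin d → V) // IsFr B d ⊤ x} =
      Nat.card {P : Submodule F V × Submodule F V // IsCompl P.1 P.2 ∧ IsoOn B P.1 ∧ IsoOn B P.2} *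
        ∏ i : Fin d, (Fintype.card F ^ d - Fintype.card F ^ (i : ℕ)) := by
  classical
  have : FiniteDimensional F V := Module.Finite.of_finite
  have : Finite (Submodule F V) := Finite.of_injective (fun U : Submodule F V => (U : Set V))
    SetLike.coe_injective
  have h1 := Cfsg.Agent.Lib.Helper50.card_pairs
    (α := Submodule F V × Submodule F V) (β := (Fin d → V) × (Fin d → V))
    (fun P => IsCompl P.1 P.2 ∧ IsoOn B P.1 ∧ IsoOn B P.2)
    (fun P x => IsFr B d ⊤ x ∧ span F (Set.range x.1) = P.1 ∧ span F (Set.range x.2) = P.2)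
    (∏ i : Fin d, (Fintype.card F ^ d - Fintype.card F ^ (i : ℕ)))
    (fun P hP => card_frames_over hB hnd hd hP.1 hP.2.1 hP.2.2)
  rw [← h1]
  apply Nat.card_congr
  refine
    { toFun := fun x => ⟨((span F (Set.range x.1.1), span F (Set.range x.1.2)), x.1),
        ⟨frame_isCompl hB hd x.2, isoOn_span' ?_, isoOn_span' ?_⟩, x.2, rfl, rfl⟩
      invFun := fun y => ⟨y.1.2, y.2.2.1⟩
      left_inv := fun x => rfl
      right_inv := ?_ }
  · rintro _ ⟨i, rfl⟩ _ ⟨j, rfl⟩
    exact x.2.2.2.1 i j
  · rintro _ ⟨i, rfl⟩ _ ⟨j, rfl⟩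
    exact x.2.2.2.2.1 i j
  · rintro ⟨⟨P, x⟩, hP, hx, h1, h2⟩
    apply Subtype.ext
    apply Prod.ext
    · exact Prod.ext h1 h2
    · rfl

end Cfsg.Agent.Lib.Helper99
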