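import Cfsg.Agent.Lib.Helper99.PolarCount

set_option autoImplicit false

namespace Cfsg.Agent.Lib.Helper99

open Module Submodule

variable {F V : Type*} [Field F] [AddCommGroup V] [Module F V]

/-- Fixed-point congruence for a linear map with `T ^ r = 1`. -/
theorem pow_finrank_modEq_fixed [Fintype F] [Finite V] {r : ℕ} [Fact r.Prime]
    (T : V →ₗ[F] V) (hT : T ^ r = 1) :
    Fintype.card F ^ finrank F V ≡ Fintype.card F ^ finrank F (LinearMap.ker (T - 1)) [MOD r] := by
  classical
  have := Fintype.ofFinite V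
  let f : Function.End V := fun v => T v
  have hpow : ∀ n : ℕ, ∀ v, (f ^ n) v = (T ^ n) v := by
    intro n
    induction n with
    | zero => intro v; rfl
    | succ n ih =>
      intro v
      rw [pow_succ', pow_succ']
      show f ((f ^ n) v) = T ((T ^ n) v)
      rw [ih]
  have h1 : f ^ r ^ 1 = 1 := by
    funext v
    rw [pow_one, hpow, hT]
    rfl
  have h2 := Equiv.Perm.card_fixedPoints_modEq h1
  have h3 : Fintype.card V = Fintype.card F ^ finrank F V := by
    rw [Fintype.card_eq_nat_card, Module.natCard_eq_pow_finrank (K := F), Nat.card_eq_fintype_card]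
  have h4 : Fintype.card (Function.fixedPoints f) = Fintype.card F ^ finrank F (LinearMap.ker (T - 1)) := by
    rw [Fintype.card_eq_nat_card, ← Nat.card_eq_fintype_card (α := F), ← Module.natCard_eq_pow_finrank]
    apply Nat.card_congr
    apply Equiv.subtypeEquivRight
    intro v
    rw [LinearMap.mem_ker, LinearMap.sub_apply, Module.End.one_apply, sub_eq_zero]
    rfl
  rw [h3, h4] at h2
  exact h2

/-- The power of `q` given by the codimension of the fixed space is `1` modulo `r`. -/
theorem pow_codim_fixed_eq_one [Fintype F] [Finite V] {r : ℕ} [Fact r.Prime]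
    (hrq : ¬ r ∣ Fintype.card F) (T : V →ₗ[F] V) (hT : T ^ r = 1) :
    ((Fintype.card F : ℕ) : ZMod r) ^ (finrank F V - finrank F (LinearMap.ker (T - 1))) = 1 := by
  have : FiniteDimensional F V := Module.Finite.of_finite
  set a := finrank F (LinearMap.ker (T - 1)) with ha
  have hle : a ≤ finrank F V := Submodule.finrank_le _
  have h1 := (ZMod.natCast_eq_natCast_iff _ _ _).2 (pow_finrank_modEq_fixed T hT)
  rw [← ha] at h1
  push_cast at h1
  have hq0 : ((Fintype.card F : ℕ) : ZMod r) ≠ 0 := by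
    rw [Ne, ZMod.natCast_eq_zero_iff]
    exact hrq
  have h2 : ((Fintype.card F : ℕ) : ZMod r) ^ a * ((Fintype.card F : ℕ) : ZMod r) ^ (finrank F V - a)
      = ((Fintype.card F : ℕ) : ZMod r) ^ a * 1 := by
    rw [← pow_add, mul_one, ← h1]
    congr 1
    omega
  exact mul_left_cancel₀ (pow_ne_zero _ hq0) h2

/-- An isometry trivial on one of two complementary isotropic subspaces and stabilising the other is
trivial on the other. -/
lemma trivial_on_compl {B : LinearMap.BilinForm F V} (hB : B.IsAlt) (hnd : NondegOn B ⊤)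
    {T : V →ₗ[F] V} (hT : ∀ u v, B (T u) (T v) = B u v) {U W : Submodule F V} (hc : IsCompl U W)
    (hW : IsoOn B W) (hTW : ∀ w ∈ W, T w ∈ W) (hU1 : ∀ u ∈ U, T u = u) : ∀ w ∈ W, T w = w := by
  intro w hw
  rw [← sub_eq_zero]
  apply eq_zero_of_orth_compl hB hnd hc hW (W.sub_mem (hTW w hw) hw)
  intro u hu
  rw [map_sub]
  nth_rewrite 1 [← hU1 u hu]
  rw [hT, sub_self]

/-- Arithmetic: minimality of `i` with `Q ^ i = -1`. -/
lemma false_of_pow_eq_one_of_min {R : Type*} [Ring R] {Q : R} {i t : ℕ} (h1 : (1 : R) ≠ -1)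
    (hi : Q ^ i = -1) (hmin : ∀ j, 1 ≤ j → j < i → Q ^ j ≠ -1) (ht0 : 0 < t) (hti : t ≤ i)
    (ht : Q ^ t = 1) : False := by
  rcases Nat.lt_or_ge t i with h | h
  · apply hmin (i - t) (by omega) (by omega)
    rw [← hi, show i = (i - t) + t by omega, pow_add, ht, mul_one]
    congr 1
    omega
  · have : t = i := by omega
    rw [this, hi] at ht
    exact h1 ht.symm

/-- One half of the fixed-pair analysis. -/
lemma false_of_fixed_pair_aux [Fintype F] [Finite V] {B : LinearMap.BilinForm F V} (hB : B.IsAlt)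
    (hnd : NondegOn B ⊤) {d : ℕ} (hd : finrank F V = 2 * d) {r : ℕ} [Fact r.Prime]
    (hrq : ¬ r ∣ Fintype.card F) (hr2 : r ≠ 2)
    {T : V →ₗ[F] V} (hT : ∀ u v, B (T u) (T v) = B u v) (hTr : T ^ r = 1) (hT1 : T ≠ 1)
    {i : ℕ} (hi : ((Fintype.card F : ℕ) : ZMod r) ^ i = -1)
    (hmin : ∀ j, 1 ≤ j → j < i → ((Fintype.card F : ℕ) : ZMod r) ^ j ≠ -1)
    {U W : Submodule F V} (hc : IsCompl U W) (hU : IsoOn B U) (hW : IsoOn B W)
    (hTU : ∀ u ∈ U, T u ∈ U) (hTW : ∀ w ∈ W, T w ∈ W)
    (hle : d - finrank F (LinearMap.ker (T.restrict hTU - 1)) ≤ i) : False := by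
  have : FiniteDimensional F V := Module.Finite.of_finite
  obtain ⟨hUd, hWd⟩ := finrank_of_isCompl_isoOn hB hnd hd hc hU hW
  have hr : r.Prime := Fact.out
  have h1 : (1 : ZMod r) ≠ -1 := by
    intro h
    have h2 : ((2 : ℕ) : ZMod r) = 0 := by
      push_cast
      have : (2 : ZMod r) = 1 + 1 := by norm_num
      rw [this]
      nth_rewrite 1 [h]
      ring
    rw [ZMod.natCast_eq_zero_iff] at h2
    exact hr2 ((Nat.prime_dvd_prime_iff_eq hr Nat.prime_two).1 h2)
  have hTUr : (T.restrict hTU) ^ r = 1 := by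
    rw [Module.End.pow_restrict]
    apply LinearMap.ext
    intro u
    apply Subtype.ext
    rw [LinearMap.coe_restrict_apply, hTr]
    rfl
  have h2 := pow_codim_fixed_eq_one hrq (T.restrict hTU) hTUr
  rw [hUd] at h2
  rcases Nat.eq_zero_or_pos (d - finrank F (LinearMap.ker (T.restrict hTU - 1))) with h0 | h0
  · -- trivial on `U`
    have hle' : finrank F (LinearMap.ker (T.restrict hTU - 1)) ≤ finrank F U := Submodule.finrank_le _
    have htop : LinearMap.ker (T.restrict hTU - 1) = ⊤ := by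
      apply Submodule.eq_top_of_finrank_eq
      omega
    have hU1 : ∀ u ∈ U, T u = u := by
      intro u hu
      have h3 : (⟨u, hu⟩ : U) ∈ LinearMap.ker (T.restrict hTU - 1) := by rw [htop]; trivial
      rw [LinearMap.mem_ker, LinearMap.sub_apply, Module.End.one_apply, sub_eq_zero] at h3
      exact congrArg Subtype.val h3
    have hW1 := trivial_on_compl hB hnd hT hc hW hTW hU1
    apply hT1
    apply LinearMap.ext
    intro v
    have hv : v ∈ U ⊔ W := by rw [hc.sup_eq_top]; trivial
    obtain ⟨u, hu, w, hw, rfl⟩ := Submodule.mem_sup.1 hv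
    rw [map_add, hU1 u hu, hW1 w hw]
    rfl
  · exact false_of_pow_eq_one_of_min h1 hi hmin h0 hle h2

/-- The fixed space is the sum of its parts in two complementary invariant subspaces. -/
lemma finrank_fixed_le {T : V →ₗ[F] V} [FiniteDimensional F V] {U W : Submodule F V} (hc : IsCompl U W)
    (hTU : ∀ u ∈ U, T u ∈ U) (hTW : ∀ w ∈ W, T w ∈ W) :
    finrank F (LinearMap.ker (T - 1)) ≤ finrank F (LinearMap.ker (T.restrict hTU - 1))
      + finrank F (LinearMap.ker (T.restrict hTW - 1)) := by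
  have h1 : LinearMap.ker (T - 1) ≤ (LinearMap.ker (T.restrict hTU - 1)).map U.subtype
      ⊔ (LinearMap.ker (T.restrict hTW - 1)).map W.subtype := by
    intro v hv
    rw [LinearMap.mem_ker, LinearMap.sub_apply, Module.End.one_apply, sub_eq_zero] at hv
    have hv' : v ∈ U ⊔ W := by rw [hc.sup_eq_top]; trivial
    obtain ⟨u, hu, w, hw, rfl⟩ := Submodule.mem_sup.1 hv'
    rw [map_add] at hv
    have h2 : T u - u = w - T w := by
      rw [sub_eq_sub_iff_add_eq_add, hv, add_comm]
    have h3 : T u - u ∈ U ⊓ W :=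
      ⟨U.sub_mem (hTU u hu) hu, by rw [h2]; exact W.sub_mem hw (hTW w hw)⟩
    rw [hc.inf_eq_bot, Submodule.mem_bot] at h3
    have h4 : w - T w = 0 := by rw [← h2, h3]
    apply Submodule.add_mem_sup
    · refine ⟨⟨u, hu⟩, ?_, rfl⟩
      show _ ∈ LinearMap.ker _
      rw [LinearMap.mem_ker, LinearMap.sub_apply, Module.End.one_apply, sub_eq_zero]
      apply Subtype.ext
      exact sub_eq_zero.1 h3
    · refine ⟨⟨w, hw⟩, ?_, rfl⟩
      show _ ∈ LinearMap.ker _
      rw [LinearMap.mem_ker, LinearMap.sub_apply, Module.End.one_apply, sub_eq_zero]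
      apply Subtype.ext
      exact (sub_eq_zero.1 h4).symm
  have h2 := Submodule.finrank_mono h1
  have h3 := Submodule.finrank_add_le_finrank_add_finrank
    ((LinearMap.ker (T.restrict hTU - 1)).map U.subtype) ((LinearMap.ker (T.restrict hTW - 1)).map W.subtype)
  rw [Submodule.finrank_map_subtype_eq, Submodule.finrank_map_subtype_eq] at h3
  omega

/-- An isometry of odd prime order `r` with a large fixed space stabilises no polar pair. -/
theorem false_of_fixed_pair [Fintype F] [Finite V] {B : LinearMap.BilinForm F V} (hB : B.IsAlt)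
    (hnd : NondegOn B ⊤) {d : ℕ} (hd : finrank F V = 2 * d) {r : ℕ} [Fact r.Prime]
    (hrq : ¬ r ∣ Fintype.card F) (hr2 : r ≠ 2)
    {T : V →ₗ[F] V} (hT : ∀ u v, B (T u) (T v) = B u v) (hTr : T ^ r = 1) (hT1 : T ≠ 1)
    {i : ℕ} (hi : ((Fintype.card F : ℕ) : ZMod r) ^ i = -1)
    (hmin : ∀ j, 1 ≤ j → j < i → ((Fintype.card F : ℕ) : ZMod r) ^ j ≠ -1)
    (hfix : 2 * d ≤ finrank F (LinearMap.ker (T - 1)) + 2 * i)
    {U W : Submodule F V} (hc : IsCompl U W) (hU : IsoOn B U) (hW : IsoOn B W)
    (hTU : ∀ u ∈ U, T u ∈ U) (hTW : ∀ w ∈ W, T w ∈ W) : False := by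
  have : FiniteDimensional F V := Module.Finite.of_finite
  have h1 := finrank_fixed_le hc hTU hTW
  rcases Nat.lt_or_ge i (d - finrank F (LinearMap.ker (T.restrict hTU - 1))) with h | h
  · exact false_of_fixed_pair_aux hB hnd hd hrq hr2 hT hTr hT1 hi hmin hc.symm hW hU hTW hTU (by omega)
  · exact false_of_fixed_pair_aux hB hnd hd hrq hr2 hT hTr hT1 hi hmin hc hU hW hTU hTW h

/-- A map of odd order cannot interchange two complementary subspaces. -/
theorem false_of_swapped_pair [Nontrivial V] {T : V →ₗ[F] V} {r : ℕ} (hr : Odd r) (hTr : T ^ r = 1)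
    {U W : Submodule F V} (hc : IsCompl U W) (hUW : U.map T = W) (hWU : W.map T = U) : False := by
  obtain ⟨m, rfl⟩ := hr
  have h1 : ∀ n : ℕ, U.map (T ^ (2 * n)) = U := by
    intro n
    induction n with
    | zero => exact Submodule.map_id U
    | succ n ih =>
      rw [show 2 * (n + 1) = 1 + 1 + 2 * n by ring, pow_add, pow_add, pow_one, Module.End.mul_eq_comp,
        Module.End.mul_eq_comp, Submodule.map_comp, Submodule.map_comp, ih, hUW, hWU]
  have h2 : U.map (T ^ (2 * m + 1)) = W := by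
    rw [add_comm, pow_add, pow_one, Module.End.mul_eq_comp, Submodule.map_comp, h1, hUW]
  rw [hTr] at h2
  have h3 : U = W := by
    rw [← h2]
    exact (Submodule.map_id U).symm
  subst h3
  have h4 : U = ⊥ := by
    have := hc.inf_eq_bot
    rwa [inf_idem] at this
  have h5 : U = ⊤ := by
    have := hc.sup_eq_top
    rwa [sup_idem] at this
  rw [h4] at h5
  exact bot_ne_top h5

end Cfsg.Agent.Lib.Helper99
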