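import Cfsg.Agent.Lib.Helper99.PolarDerange

set_option autoImplicit false

namespace Cfsg.Agent.Lib.Helper99

open Module Submodule Polynomial

section general

variable {F : Type*} [Field F]

lemma commute_aeval {A : Type*} [Ring A] [Algebra F A] {x y : A} (h : Commute y x) (p : F[X]) :
    Commute y (aeval x p) := by
  have h1 : Algebra.adjoin F {x} ≤ Subalgebra.centralizer F {y} := by
    apply Algebra.adjoin_le
    rintro _ rfl
    rw [SetLike.mem_coe, Subalgebra.mem_centralizer_iff]
    rintro _ rfl
    exact h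
  have h2 := h1 (aeval_mem_adjoin_singleton F x (p := p))
  rw [Subalgebra.mem_centralizer_iff] at h2
  exact h2 y rfl

variable {V : Type*} [AddCommGroup V] [Module F V]

/-- A map of prime order `r`, with `q` of order `dim V` modulo `r`, acts irreducibly. -/
theorem irreducible_of_primitive [Fintype F] [Finite V] {r : ℕ} [Fact r.Prime]
    (hrq : ¬ r ∣ Fintype.card F)
    (hprim : ∀ k, 0 < k → k < finrank F V → ((Fintype.card F : ℕ) : ZMod r) ^ k ≠ 1)
    (T : V →ₗ[F] V) (hT : T ^ r = 1) (hT1 : T ≠ 1) (W : Submodule F V) (hW : ∀ w ∈ W, T w ∈ W) :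
    W = ⊥ ∨ W = ⊤ := by
  have : FiniteDimensional F V := Module.Finite.of_finite
  have hfix : LinearMap.ker (T - 1) = ⊥ := by
    have h1 := pow_codim_fixed_eq_one hrq T hT
    have h2 : finrank F (LinearMap.ker (T - 1)) ≤ finrank F V := Submodule.finrank_le _
    rcases Nat.eq_zero_or_pos (finrank F (LinearMap.ker (T - 1))) with h0 | h0
    · exact Submodule.finrank_eq_zero.1 h0
    · exfalso
      rcases Nat.eq_zero_or_pos (finrank F V - finrank F (LinearMap.ker (T - 1))) with h3 | h3
      · apply hT1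
        have htop : LinearMap.ker (T - 1) = ⊤ := Submodule.eq_top_of_finrank_eq (by omega)
        apply LinearMap.ext
        intro v
        have hv : v ∈ LinearMap.ker (T - 1) := by rw [htop]; trivial
        rw [LinearMap.mem_ker, LinearMap.sub_apply, Module.End.one_apply, sub_eq_zero] at hv
        exact hv
      · exact hprim _ h3 (by omega) h1
  have hTW : (T.restrict hW) ^ r = 1 := by
    rw [Module.End.pow_restrict]
    apply LinearMap.ext
    intro u
    apply Subtype.ext
    rw [LinearMap.coe_restrict_apply, hT]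
    rfl
  have h1 := pow_codim_fixed_eq_one hrq (T.restrict hW) hTW
  have hfixW : LinearMap.ker (T.restrict hW - 1) = ⊥ := by
    rw [LinearMap.ker_eq_bot']
    intro w hw
    rw [LinearMap.sub_apply, Module.End.one_apply, sub_eq_zero] at hw
    have h2 : (w : V) ∈ LinearMap.ker (T - 1) := by
      rw [LinearMap.mem_ker, LinearMap.sub_apply, Module.End.one_apply, sub_eq_zero]
      exact congrArg Subtype.val hw
    rw [hfix, Submodule.mem_bot] at h2
    exact Subtype.ext h2
  rw [hfixW, finrank_bot, Nat.sub_zero] at h1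
  have h2 : finrank F W ≤ finrank F V := Submodule.finrank_le _
  rcases Nat.eq_zero_or_pos (finrank F W) with h0 | h0
  · exact Or.inl (Submodule.finrank_eq_zero.1 h0)
  · right
    apply Submodule.eq_top_of_finrank_eq
    by_contra hne
    exact hprim _ h0 (by omega) h1

end general

section singer

variable {F K : Type*} [Field F] [Field K] [Algebra F K] [FiniteDimensional F K]

/-- An irreducible map whose minimal polynomial has a root in `K` is conjugate to a multiplication, and its
centraliser goes to multiplications. -/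
theorem exists_conj_lmul (x : Module.End F K)
    (hirr : ∀ W : Submodule F K, (∀ w ∈ W, x w ∈ W) → W = ⊥ ∨ W = ⊤)
    (ζ : K) (hζ : aeval ζ (minpoly F x) = 0) :
    ∃ g : K ≃ₗ[F] K, ∀ y : Module.End F K, Commute y x → ∃ c : K, ∀ w, g (y w) = c * g w := by
  classical
  have hxint : IsIntegral F x := Algebra.IsIntegral.isIntegral x
  have hζint : IsIntegral F ζ := Algebra.IsIntegral.isIntegral ζ
  -- invariance of kernels
  have hker : ∀ p : F[X], LinearMap.ker (aeval x p) = ⊥ ∨ LinearMap.ker (aeval x p) = ⊤ := by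
    intro p
    apply hirr
    intro w hw
    rw [LinearMap.mem_ker] at hw ⊢
    have h1 := (commute_aeval (Commute.refl x) p).eq
    have h2 : (aeval x p) (x w) = (aeval x p * x) w := rfl
    rw [h2, ← h1, Module.End.mul_apply, hw, map_zero]
  -- the minimal polynomial of `ζ` kills `x`
  have hR : aeval x (minpoly F ζ) = 0 := by
    obtain ⟨S, hS⟩ := minpoly.dvd F ζ hζ
    rcases hker (minpoly F ζ) with h | h
    · exfalso
      have h1 : aeval x (minpoly F ζ) * aeval x S = 0 := by
        rw [← map_mul, ← hS, minpoly.aeval]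
      have h2 : aeval x S = 0 := by
        apply LinearMap.ext
        intro w
        have h3 := LinearMap.congr_fun h1 w
        rw [Module.End.mul_apply, LinearMap.zero_apply] at h3
        have h4 : (aeval x S) w ∈ LinearMap.ker (aeval x (minpoly F ζ)) := h3
        rw [h, Submodule.mem_bot] at h4
        exact h4
      have h3 := minpoly.dvd F x h2
      have hS0 : S ≠ 0 := by
        rintro rfl
        rw [mul_zero] at hS
        exact minpoly.ne_zero hxint hS
      have h4 := Polynomial.natDegree_le_of_dvd h3 hS0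
      have h5 : (minpoly F x).natDegree = (minpoly F ζ).natDegree + S.natDegree := by
        rw [hS, Polynomial.natDegree_mul (minpoly.ne_zero hζint) hS0]
      have h6 := minpoly.natDegree_pos hζint
      omega
    · apply LinearMap.ext
      intro w
      have : w ∈ LinearMap.ker (aeval x (minpoly F ζ)) := by rw [h]; trivial
      exact this
  let ε₁ : F[X] →ₗ[F] K := (aeval ζ : F[X] →ₐ[F] K).toLinearMap
  let ε₂ : F[X] →ₗ[F] K := (LinearMap.applyₗ (1 : K)).comp (aeval x : F[X] →ₐ[F] Module.End F K).toLinearMap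
  have hε₁ : ∀ p, ε₁ p = aeval ζ p := fun _ => rfl
  have hε₂ : ∀ p, ε₂ p = (aeval x p) 1 := fun _ => rfl
  have hsurj : Function.Surjective ε₂ := by
    rw [← LinearMap.range_eq_top]
    rcases hirr (LinearMap.range ε₂) (by
      rintro _ ⟨p, rfl⟩
      refine ⟨X * p, ?_⟩
      rw [hε₂, hε₂, map_mul, aeval_X, Module.End.mul_apply]) with h | h
    · exfalso
      have h1 : (1 : K) ∈ LinearMap.range ε₂ := ⟨1, by
        rw [hε₂, map_one (aeval x : F[X] →ₐ[F] Module.End F K)]; rfl⟩
      rw [h, Submodule.mem_bot] at h1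
      exact one_ne_zero h1
    · exact h
  have hk21 : LinearMap.ker ε₂ ≤ LinearMap.ker ε₁ := by
    intro p hp
    rw [LinearMap.mem_ker, hε₂] at hp
    rw [LinearMap.mem_ker, hε₁]
    have h1 : aeval x p = 0 := by
      rcases hker p with h | h
      · exfalso
        have : (1 : K) ∈ LinearMap.ker (aeval x p) := hp
        rw [h, Submodule.mem_bot] at this
        exact one_ne_zero this
      · apply LinearMap.ext
        intro w
        have : w ∈ LinearMap.ker (aeval x p) := by rw [h]; trivial
        exact this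
    obtain ⟨S, rfl⟩ := minpoly.dvd F x h1
    rw [map_mul, hζ, zero_mul]
  have hk12 : LinearMap.ker ε₁ ≤ LinearMap.ker ε₂ := by
    intro p hp
    rw [LinearMap.mem_ker, hε₁] at hp
    rw [LinearMap.mem_ker, hε₂]
    obtain ⟨S, rfl⟩ := minpoly.dvd F ζ hp
    rw [map_mul, hR, zero_mul]
    rfl
  let g₀ : K →ₗ[F] K := ((LinearMap.ker ε₂).liftQ ε₁ hk21).comp
    (ε₂.quotKerEquivOfSurjective hsurj).symm.toLinearMap
  have hg₀ : ∀ p, g₀ (ε₂ p) = ε₁ p := by
    intro p
    have h1 : (ε₂.quotKerEquivOfSurjective hsurj).symm (ε₂ p) = (LinearMap.ker ε₂).mkQ p := by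
      rw [LinearEquiv.symm_apply_eq]
      rfl
    show ((LinearMap.ker ε₂).liftQ ε₁ hk21) ((ε₂.quotKerEquivOfSurjective hsurj).symm (ε₂ p)) = _
    rw [h1]
    rfl
  have hinj : Function.Injective g₀ := by
    rw [← LinearMap.ker_eq_bot, LinearMap.ker_eq_bot']
    intro w hw
    obtain ⟨p, rfl⟩ := hsurj w
    rw [hg₀] at hw
    exact hk12 hw
  refine ⟨LinearEquiv.ofInjectiveEndo g₀ hinj, ?_⟩
  intro y hy
  obtain ⟨p₀, hp₀⟩ := hsurj (y 1)
  refine ⟨ε₁ p₀, ?_⟩
  intro w
  obtain ⟨p, rfl⟩ := hsurj w
  have h1 : y (ε₂ p) = ε₂ (p * p₀) := by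
    rw [hε₂, hε₂, map_mul, Module.End.mul_apply, ← hε₂ p₀, hp₀]
    have h2 := (commute_aeval hy p).eq
    exact LinearMap.congr_fun h2 1
  show g₀ (y (ε₂ p)) = ε₁ p₀ * g₀ (ε₂ p)
  rw [h1, hg₀, hg₀, hε₁, hε₁, hε₁, map_mul, mul_comm]

end singer

end Cfsg.Agent.Lib.Helper99
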